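import Cfsg.Agent.PSolv.Factorization
import Cfsg.Agent.LAE62.SylowBasics
import Mathlib.GroupTheory.SchurZassenhaus

/-!
Elements of prime power order moving a subgroup, and biprimary subgroups of `p`-soluble groups.
-/

set_option autoImplicit false

open Cfsg
open scoped Pointwise

namespace Cfsg.Agent.Automizer

universe u

/-- Some element of `q`-power order normalizes `K` without centralizing it. -/
def Mover {G : Type*} [Group G] (q : ℕ) (K : Subgroup G) : Prop :=
  ∃ n ∈ Subgroup.normalizer (K : Set G), n ∉ Subgroup.centralizer (K : Set G) ∧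
    ∃ k : ℕ, n ^ q ^ k = 1

/-- Some characteristic subgroup of `T` is moved by an element of `q`-power order. -/
def CharMover {G : Type*} [Group G] (q : ℕ) (T : Subgroup G) : Prop :=
  ∃ K : Subgroup T, K.Characteristic ∧ Mover q (K.map T.subtype)

/-- No primes other than `p` and `q` divide the order. -/
def OnlyPrimes (p q : ℕ) (G : Type*) : Prop :=
  ∀ r : ℕ, r.Prime → r ∣ Nat.card G → r = p ∨ r = q

variable {G : Type*} [Group G]

theorem exists_qPower_not_mem [Finite G] {q : ℕ} [Fact q.Prime] (N C : Subgroup G) {n : G}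
    (hn : n ∈ N) (hnC : n ∉ C) {a : ℕ} (ha : n ^ q ^ a ∈ C) :
    ∃ y ∈ N, y ∉ C ∧ ∃ k : ℕ, y ^ q ^ k = 1 := by
  have hq : q.Prime := Fact.out
  obtain ⟨e, m, hm, he⟩ := Nat.exists_eq_pow_mul_and_not_dvd (orderOf_pos n).ne' q hq.ne_one
  refine ⟨n ^ m, pow_mem hn m, fun h => hnC ?_, e, ?_⟩
  · have hg : Nat.gcd m (q ^ a) = 1 := ((hq.coprime_iff_not_dvd.2 hm).symm).pow_right a
    have hb := Nat.gcd_eq_gcd_ab m (q ^ a)
    rw [hg, Nat.cast_one] at hb
    rw [← zpow_one n, hb, zpow_add, zpow_mul, zpow_mul, zpow_natCast, zpow_natCast]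
    exact mul_mem (zpow_mem h _) (zpow_mem ha _)
  · rw [← pow_mul, mul_comm, ← he, pow_orderOf_eq_one]

theorem isPGroup_of_onlyPrimes [Finite G] {p q : ℕ} [Fact p.Prime] (hp : OnlyPrimes p q G)
    (hq : ¬ q ∣ Nat.card G) : IsPGroup p G :=
  IsPGroup.iff_card.2 ⟨_, Nat.eq_prime_pow_of_unique_prime_dvd Nat.card_pos.ne' fun {d} hd hdd =>
    (hp d hd hdd).resolve_right fun h => hq (h ▸ hdd)⟩

theorem OnlyPrimes.of_dvd {p q : ℕ} {H : Type*} (hp : OnlyPrimes p q G)
    (h : Nat.card H ∣ Nat.card G) : OnlyPrimes p q H :=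
  fun r hr hrd => hp r hr (hrd.trans h)

theorem Mover.dvd_index [Finite G] {q : ℕ} [Fact q.Prime] {K : Subgroup G} (h : Mover q K) :
    q ∣ ((Subgroup.centralizer (K : Set G)).subgroupOf
      (Subgroup.normalizer (K : Set G))).index := by
  obtain ⟨n, hn, hnC, k, hk⟩ := h
  set C := (Subgroup.centralizer (K : Set G)).subgroupOf (Subgroup.normalizer (K : Set G))
  let x : ↥(Subgroup.normalizer (K : Set G)) ⧸ C :=
    QuotientGroup.mk (⟨n, hn⟩ : ↥(Subgroup.normalizer (K : Set G)))
  have hx : x ^ q ^ k = 1 := by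
    rw [← QuotientGroup.mk_pow, show (⟨n, hn⟩ : ↥(Subgroup.normalizer (K : Set G))) ^ q ^ k = 1
      from Subtype.ext hk, QuotientGroup.mk_one]
  obtain ⟨j, -, hj⟩ := (Nat.dvd_prime_pow Fact.out).1 (orderOf_dvd_of_pow_eq_one hx)
  rw [Subgroup.index_eq_card]
  refine dvd_trans ?_ (orderOf_dvd_natCard x)
  rcases j with _ | j
  · exfalso
    rw [pow_zero, orderOf_eq_one_iff] at hj
    exact hnC (Subgroup.mem_subgroupOf.1 ((QuotientGroup.eq_one_iff _).1 hj))
  · exact hj ▸ dvd_pow_self q j.succ_ne_zero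

theorem mover_of_dvd_index [Finite G] {q : ℕ} [Fact q.Prime] {K : Subgroup G}
    (h : q ∣ ((Subgroup.centralizer (K : Set G)).subgroupOf
      (Subgroup.normalizer (K : Set G))).index) : Mover q K := by
  rw [Subgroup.index_eq_card] at h
  obtain ⟨x, hx⟩ := exists_prime_orderOf_dvd_card' q h
  obtain ⟨⟨n, hn⟩, rfl⟩ := QuotientGroup.mk_surjective x
  refine exists_qPower_not_mem _ _ hn (fun hc => ?_) (a := 1) ?_
  · rw [(QuotientGroup.eq_one_iff _).2 (Subgroup.mem_subgroupOf.2 hc), orderOf_one] at hx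
    exact (Fact.out : q.Prime).one_lt.ne hx
  · have h1 := pow_orderOf_eq_one (QuotientGroup.mk (⟨n, hn⟩ : ↥(Subgroup.normalizer (K : Set G))) :
      ↥(Subgroup.normalizer (K : Set G)) ⧸
        (Subgroup.centralizer (K : Set G)).subgroupOf (Subgroup.normalizer (K : Set G)))
    rw [hx, ← QuotientGroup.mk_pow, QuotientGroup.eq_one_iff, Subgroup.mem_subgroupOf] at h1
    simpa using h1

theorem Mover.map {H : Type*} [Group H] (f : G →* H) (hf : Function.Injective f) {q : ℕ}
    {K : Subgroup G} (h : Mover q K) : Mover q (K.map f) := by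
  obtain ⟨n, hn, hnC, k, hk⟩ := h
  refine ⟨f n, PSolv.map_normalizer_le_normalizer_image f K ⟨n, hn, rfl⟩, fun hc => hnC ?_, k,
    by rw [← map_pow, hk, map_one]⟩
  refine Subgroup.mem_centralizer_iff.2 fun y hy => hf ?_
  rw [map_mul, map_mul]
  exact Subgroup.mem_centralizer_iff.1 hc _ ⟨y, hy, rfl⟩

theorem comap_characteristic {A B : Type*} [Group A] [Group B] (g : A →* B)
    (hg : Function.Surjective g) (hker : g.ker.Characteristic) (K : Subgroup B)
    [hK : K.Characteristic] : (K.comap g).Characteristic := by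
  refine Subgroup.characteristic_iff_comap_eq.2 fun φ => ?_
  let e := QuotientGroup.quotientKerEquivOfSurjective g hg
  let ψ : B ≃* B := e.symm.trans ((QuotientGroup.congr g.ker g.ker φ
    (Subgroup.characteristic_iff_map_eq.1 hker φ)).trans e)
  have hψ : ∀ a, ψ (g a) = g (φ a) := fun a => by
    have h1 : e.symm (g a) = (QuotientGroup.mk a : A ⧸ g.ker) := by
      rw [MulEquiv.symm_apply_eq]; rfl
    simp only [ψ, MulEquiv.trans_apply, h1]
    rfl
  ext a
  simp only [Subgroup.mem_comap]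
  rw [show φ.toMonoidHom a = φ a from rfl, ← hψ]
  have h2 := Subgroup.characteristic_iff_comap_eq.1 hK ψ
  exact (show g a ∈ K.comap ψ.toMonoidHom ↔ g a ∈ K by rw [h2])

theorem CharMover.map {H : Type*} [Group H] (f : G →* H) (hf : Function.Injective f) {q : ℕ}
    {T : Subgroup G} (h : CharMover q T) : CharMover q (T.map f) := by
  obtain ⟨K, hK, hm⟩ := h
  let e := T.equivMapOfInjective f hf
  have hc : (K.map e.toMonoidHom).Characteristic := by
    rw [Subgroup.map_equiv_eq_comap_symm']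
    exact comap_characteristic e.symm.toMonoidHom e.symm.surjective
      (by rw [MonoidHom.ker_eq_bot_iff _ |>.2 e.symm.injective]; infer_instance) K
  refine ⟨K.map e.toMonoidHom, hc, ?_⟩
  have h1 : (K.map e.toMonoidHom).map (T.map f).subtype = (K.map T.subtype).map f := by
    rw [Subgroup.map_map, Subgroup.map_map]
    rfl
  rw [h1]
  exact hm.map f hf

/-- Decomposition along a normal subgroup by the normalizer of its trace on a Sylow subgroup. -/
theorem exists_mul_mem_normalizer_inf [Finite G] {p : ℕ} [Fact p.Prime] (P : Sylow p G)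
    (N : Subgroup G) [N.Normal] (g : G) :
    ∃ c ∈ N, ∃ n ∈ Subgroup.normalizer (((P : Subgroup G) ⊓ N : Subgroup G) : Set G),
      g = c * n := by
  set U := (P : Subgroup G) ⊓ N with hU
  have hp : IsPGroup p (U.subgroupOf N) :=
    (P.isPGroup'.to_le inf_le_left).comap_subtype
  let Q : Sylow p N := hp.toSylow (LAE62.not_dvd_relIndex_sylow_inf_normal P N)
  have h := Sylow.normalizer_sup_eq_top Q
  have hQ : (Q : Subgroup N).map N.subtype = U := Subgroup.map_subgroupOf_eq_of_le inf_le_right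
  rw [hQ] at h
  have hg : g ∈ N ⊔ Subgroup.normalizer (U : Set G) := by rw [sup_comm, h]; trivial
  obtain ⟨c, hc, n, hn, e⟩ := Subgroup.mem_sup_of_normal_left.1 hg
  exact ⟨c, hc, n, hn, e.symm⟩

/-! ### Biprimary subgroups -/

theorem onlyPrimes_of_mul {p q a b : ℕ} {W : Type*} (hW : Nat.card W = a * b)
    (ha : ∀ r : ℕ, r.Prime → r ∣ a → r = p ∨ r = q)
    (hb : ∀ r : ℕ, r.Prime → r ∣ b → r = p ∨ r = q) : OnlyPrimes p q W :=
  fun r hr hd => ((Nat.Prime.dvd_mul hr).1 (hW ▸ hd)).elim (ha r hr) (hb r hr)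

theorem only_of_pow {r₀ : ℕ} (hr₀ : r₀.Prime) {a k : ℕ} (ha : a = r₀ ^ k) {r : ℕ} (hr : r.Prime)
    (hd : r ∣ a) : r = r₀ :=
  (Nat.prime_dvd_prime_iff_eq hr hr₀).1 (hr.dvd_of_dvd_pow (ha ▸ hd))

/-- A `p`-soluble group has a subgroup with no primes but `p` and `q` and index prime to both. -/
theorem exists_biprimary {p q : ℕ} [Fact p.Prime] [Fact q.Prime] :
    ∀ (n : ℕ) (W : Type u) [Group W] [Finite W], Nat.card W = n → IsPSolvable p W →
      ∃ X : Subgroup W, OnlyPrimes p q X ∧ ¬ p ∣ X.index ∧ ¬ q ∣ X.index := by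
  intro n
  induction n using Nat.strong_induction_on with
  | _ n ih =>
  intro W _ _ hn hsol
  have hp : p.Prime := Fact.out
  have hq : q.Prime := Fact.out
  by_cases hW : OnlyPrimes p q W
  · refine ⟨⊤, hW.of_dvd (by rw [Subgroup.card_top]), ?_, ?_⟩ <;> rw [Subgroup.index_top]
    · exact hp.not_dvd_one
    · exact hq.not_dvd_one
  have step : ∀ (M : Subgroup W) [M.Normal], M ≠ ⊥ → ∃ X : Subgroup (W ⧸ M),
      OnlyPrimes p q X ∧ ¬ p ∣ X.index ∧ ¬ q ∣ X.index := by
    intro M _ hM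
    refine ih _ ?_ (W ⧸ M) rfl (PSolv.isPSolvable_quotient hsol M)
    have h1 := Subgroup.card_eq_card_quotient_mul_card_subgroup M
    have h2 : 1 < Nat.card M := (Subgroup.one_lt_card_iff_ne_bot M).2 hM
    rw [← hn, h1]
    exact lt_mul_of_one_lt_right Nat.card_pos h2
  have pull : ∀ (M : Subgroup W) [M.Normal] (r₀ k : ℕ), r₀.Prime → (r₀ = p ∨ r₀ = q) →
      Nat.card M = r₀ ^ k → ∀ X : Subgroup (W ⧸ M),
      OnlyPrimes p q X → ¬ p ∣ X.index → ¬ q ∣ X.index →
      ∃ Y : Subgroup W, OnlyPrimes p q Y ∧ ¬ p ∣ Y.index ∧ ¬ q ∣ Y.index := by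
    intro M _ r₀ k hr₀ hpq hk X hX h1 h2
    refine ⟨X.comap (QuotientGroup.mk' M), onlyPrimes_of_mul (PSolv.card_comap_mk M X)
      (fun r hr hd => ?_) hX, ?_, ?_⟩
    · rw [only_of_pow hr₀ hk hr hd]; exact hpq
    all_goals rw [Subgroup.index_comap_of_surjective _ (QuotientGroup.mk'_surjective M)]
    · exact h1
    · exact h2
  have down : ∀ Y : Subgroup W, Y ≠ ⊤ → ¬ p ∣ Y.index → ¬ q ∣ Y.index →
      ∃ X : Subgroup W, OnlyPrimes p q X ∧ ¬ p ∣ X.index ∧ ¬ q ∣ X.index := by
    intro Y hY h1 h2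
    have hlt : Nat.card Y < n := hn ▸ lt_of_le_of_ne (Subgroup.card_le_card_group Y)
      (fun h => hY (Subgroup.eq_top_of_card_eq Y h))
    obtain ⟨X, hX, h3, h4⟩ := ih _ hlt Y rfl (PSolv.isPSolvable_subgroup hsol Y)
    refine ⟨X.map Y.subtype, hX.of_dvd (Subgroup.card_map_dvd _ _), ?_, ?_⟩ <;>
      rw [Subgroup.index_map_subtype]
    · exact fun h => (hp.dvd_mul.1 h).elim h3 h1
    · exact fun h => (hq.dvd_mul.1 h).elim h4 h2
  have hnt : Nontrivial W := by
    rw [← not_subsingleton_iff_nontrivial]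
    intro h
    refine hW fun r hr hd => ?_
    rw [Nat.card_of_subsingleton (1 : W)] at hd
    exact absurd hd hr.not_dvd_one
  rcases PSolv.pCore_ne_bot_or_pPrimeCore_ne_bot hsol with hM | hM
  · haveI : (pCore p W).Normal := pCore_normal p W
    obtain ⟨X, hX, h1, h2⟩ := step _ hM
    obtain ⟨k, hk⟩ := IsPGroup.iff_card.1 (PSolv.isPGroup_pCore p W)
    exact pull _ p k hp (Or.inl rfl) hk X hX h1 h2
  set M := pPrimeCore p W with hMdef
  haveI : M.Characteristic := PSolv.pPrimeCore_characteristic p W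
  have hMc : (Nat.card M).Coprime p := PSolv.coprime_card_pPrimeCore p W
  obtain ⟨X, hX, h1, h2⟩ := step _ hM
  by_cases hXt : X = ⊤
  swap
  · refine down (X.comap (QuotientGroup.mk' M)) (fun h => hXt ?_) ?_ ?_
    · have := congrArg (Subgroup.map (QuotientGroup.mk' M)) h
      rwa [Subgroup.map_comap_eq_self_of_surjective (QuotientGroup.mk'_surjective M),
        Subgroup.map_top_of_surjective _ (QuotientGroup.mk'_surjective M)] at this
    all_goals rw [Subgroup.index_comap_of_surjective _ (QuotientGroup.mk'_surjective M)]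
    · exact h1
    · exact h2
  subst hXt
  have hquo : ∀ r : ℕ, r.Prime → r ∣ M.index → r = p ∨ r = q := by
    intro r hr hd
    refine hX r hr ?_
    rwa [Subgroup.card_top, ← Subgroup.index_eq_card]
  obtain ⟨Q⟩ : Nonempty (Sylow q M) := inferInstance
  set Q0 := (Q : Subgroup M).map M.subtype with hQ0
  set N := Subgroup.normalizer (Q0 : Set W) with hN
  by_cases hNt : N = ⊤
  swap
  · have hfr : N ⊔ M = ⊤ := Sylow.normalizer_sup_eq_top Q
    have h3 : N.index = (N ⊓ M).relIndex M := by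
      have e1 := Subgroup.relIndex_mul_index (H := N ⊓ M) (K := N) inf_le_left
      have e2 := Subgroup.relIndex_mul_index (H := N ⊓ M) (K := M) inf_le_right
      have e3 : (N ⊓ M).relIndex N = M.index := by
        rw [Subgroup.inf_relIndex_left, ← Subgroup.relIndex_sup_right N M, hfr,
          Subgroup.relIndex_top_right]
      rw [e3, ← e2, mul_comm] at e1
      exact Nat.eq_of_mul_eq_mul_right (Nat.pos_of_ne_zero Subgroup.index_ne_zero_of_finite) e1
    have hQN : Q0 ≤ N ⊓ M := le_inf Subgroup.le_normalizer (Subgroup.map_subtype_le _)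
    refine down N hNt (fun h => ?_) (fun h => ?_)
    · rw [h3] at h
      exact (hp.coprime_iff_not_dvd.1 hMc.symm) (h.trans (Subgroup.relIndex_dvd_card _ _))
    · rw [h3] at h
      refine Q.not_dvd_index (h.trans ?_)
      refine (Subgroup.relIndex_dvd_of_le_left M hQN).trans (dvd_of_eq ?_)
      rw [hQ0, Subgroup.relIndex, Subgroup.subgroupOf,
        Subgroup.comap_map_eq_self_of_injective M.subtype_injective]
  by_cases hQb : Q0 = ⊥
  swap
  · haveI : Q0.Normal := Subgroup.normalizer_eq_top_iff.1 hNt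
    obtain ⟨X, hX, h1, h2⟩ := step _ hQb
    obtain ⟨k, hk⟩ := IsPGroup.iff_card.1 (Q.isPGroup'.map M.subtype)
    exact pull _ q k hq (Or.inr rfl) hk X hX h1 h2
  have hqM : ¬ q ∣ Nat.card M := fun h => Q.ne_bot_of_dvd_card h
    ((Subgroup.map_eq_bot_iff_of_injective _ M.subtype_injective).1 hQb)
  have hco : (Nat.card M).Coprime M.index := by
    refine Nat.coprime_of_dvd fun r hr h1 h2 => ?_
    rcases hquo r hr h2 with rfl | rfl
    · exact (hp.coprime_iff_not_dvd.1 hMc.symm) h1
    · exact hqM h1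
  obtain ⟨Y, hY⟩ := Subgroup.exists_right_complement'_of_coprime hco
  have e1 : M.index = Nat.card Y := (Subgroup.IsComplement'.symm hY).index_eq_card
  have e2 : Y.index = Nat.card M := hY.index_eq_card
  refine ⟨Y, fun r hr hd => hquo r hr (e1 ▸ hd), ?_, ?_⟩ <;> rw [e2]
  · exact hp.coprime_iff_not_dvd.1 hMc.symm
  · exact hqM

/-- A `p`-soluble group has a subgroup with no primes but `p` and `q` that contains a given
Sylow `p`-subgroup and has index prime to `q`. -/
theorem exists_biprimary_ge {W : Type u} [Group W] [Finite W] {p q : ℕ} [Fact p.Prime]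
    [Fact q.Prime] (hsol : IsPSolvable p W) (T : Sylow p W) :
    ∃ X : Subgroup W, (T : Subgroup W) ≤ X ∧ OnlyPrimes p q X ∧ ¬ q ∣ X.index := by
  obtain ⟨X, hX, h1, h2⟩ := exists_biprimary (p := p) (q := q) _ W rfl hsol
  obtain ⟨S⟩ : Nonempty (Sylow p X) := inferInstance
  let S' : Sylow p W := (S.isPGroup'.map X.subtype).toSylow (by
    rw [Subgroup.index_map_subtype]
    exact fun h => ((Fact.out : p.Prime).dvd_mul.1 h).elim S.not_dvd_index h1)
  obtain ⟨g, hg⟩ := MulAction.exists_smul_eq W S' T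
  refine ⟨X.map (MulAut.conj g).toMonoidHom, ?_, hX.of_dvd (Subgroup.card_map_dvd _ _), ?_⟩
  · rw [← hg, PSolv.coe_sylow_smul]
    exact Subgroup.map_mono (Subgroup.map_subtype_le _)
  · rwa [show (X.map (MulAut.conj g).toMonoidHom).index = X.index from
      Subgroup.index_map_equiv X (MulAut.conj g)]

end Cfsg.Agent.Automizer
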