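import Cfsg.Agent.Automizer.MoverBasics
import Cfsg.Agent.S0618
import Cfsg.Agent.Coprime.Generation
import Cfsg.Agent.PSolv.HallHigman
import Cfsg.Agent.Primitive.Basic
import Mathlib.GroupTheory.Nilpotent

/-!
A prime moving some `p`-subgroup moves a subgroup normal in a Sylow `p`-subgroup.
-/

set_option autoImplicit false

open Cfsg
open scoped Pointwise

namespace Cfsg.Agent.Automizer

universe u

open Matrix in
theorem dvd_card_SL2 (p : ℕ) (hp : p = 2 ∨ p = 3) :
    2 ∣ Nat.card (Matrix.SpecialLinearGroup (Fin 2) (ZMod p)) ∧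
      3 ∣ Nat.card (Matrix.SpecialLinearGroup (Fin 2) (ZMod p)) := by
  rcases hp with rfl | rfl
  · obtain ⟨a, ha, ha1⟩ : ∃ a : SpecialLinearGroup (Fin 2) (ZMod 2), a ^ 2 = 1 ∧ a ≠ 1 :=
      ⟨⟨!![1, 1; 0, 1], by decide⟩, by decide,
        fun h => absurd (congrArg (fun M : SpecialLinearGroup (Fin 2) _ => M.1) h) (by decide)⟩
    obtain ⟨b, hb, hb1⟩ : ∃ b : SpecialLinearGroup (Fin 2) (ZMod 2), b ^ 3 = 1 ∧ b ≠ 1 :=
      ⟨⟨!![0, 1; 1, 1], by decide⟩, by decide,
        fun h => absurd (congrArg (fun M : SpecialLinearGroup (Fin 2) _ => M.1) h) (by decide)⟩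
    haveI : Fact (Nat.Prime 2) := ⟨Nat.prime_two⟩
    haveI : Fact (Nat.Prime 3) := ⟨Nat.prime_three⟩
    exact ⟨(dvd_of_eq (orderOf_eq_prime ha ha1).symm).trans (orderOf_dvd_natCard a),
      (dvd_of_eq (orderOf_eq_prime hb hb1).symm).trans (orderOf_dvd_natCard b)⟩
  · obtain ⟨a, ha, ha1⟩ : ∃ a : SpecialLinearGroup (Fin 2) (ZMod 3), a ^ 2 = 1 ∧ a ≠ 1 :=
      ⟨⟨!![2, 0; 0, 2], by decide⟩, by decide,
        fun h => absurd (congrArg (fun M : SpecialLinearGroup (Fin 2) _ => M.1) h) (by decide)⟩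
    obtain ⟨b, hb, hb1⟩ : ∃ b : SpecialLinearGroup (Fin 2) (ZMod 3), b ^ 3 = 1 ∧ b ≠ 1 :=
      ⟨⟨!![1, 1; 0, 1], by decide⟩, by decide,
        fun h => absurd (congrArg (fun M : SpecialLinearGroup (Fin 2) _ => M.1) h) (by decide)⟩
    haveI : Fact (Nat.Prime 2) := ⟨Nat.prime_two⟩
    haveI : Fact (Nat.Prime 3) := ⟨Nat.prime_three⟩
    exact ⟨(dvd_of_eq (orderOf_eq_prime ha ha1).symm).trans (orderOf_dvd_natCard a),
      (dvd_of_eq (orderOf_eq_prime hb hb1).symm).trans (orderOf_dvd_natCard b)⟩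

/-- The core of the argument, in a biprimary group with trivial `p'`-core. -/
theorem charMover_biprimary {p q : ℕ} [Fact p.Prime] [Fact q.Prime] (hpq : p ≠ q)
    (h23 : ¬ ((p = 2 ∧ q = 3) ∨ (p = 3 ∧ q = 2))) :
    ∀ (n : ℕ) (X : Type u) [Group X] [Finite X], Nat.card X = n → OnlyPrimes p q X →
      IsPSolvable p X → pPrimeCore p X = ⊥ → q ∣ Nat.card X →
      ∀ (S : Sylow p X) (T : Subgroup X), (S : Subgroup X) = T → CharMover q T := by
  intro n
  induction n using Nat.strong_induction_on with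
  | _ n ih =>
  intro X _ _ hn hX hsol hO hq S T hST
  have hp : p.Prime := Fact.out
  have hqp : q.Prime := Fact.out
  have hTp : IsPGroup p T := hST ▸ S.isPGroup'
  have hqel : ∀ {H : Subgroup X}, IsPGroup p H → ∀ {y : X}, y ∈ H → (∃ k : ℕ, y ^ q ^ k = 1) →
      y = 1 := by
    intro H hH y hy ⟨k, hk⟩
    obtain ⟨j, hj⟩ := hH ⟨y, hy⟩
    have hj' : y ^ p ^ j = 1 := by simpa using congrArg Subtype.val hj
    have h1 : y ^ Nat.gcd (q ^ k) (p ^ j) = 1 := pow_gcd_eq_one.2 ⟨hk, hj'⟩
    rwa [Nat.Coprime.gcd_eq_one (Nat.Coprime.pow k j ((Nat.coprime_primes hqp hp).2 hpq.symm)),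
      pow_one] at h1
  -- Thompson factorization
  have hfac : IsThompsonFactorizable p X := by
    by_contra hnf
    obtain ⟨hp23, E, -, -, -, hEn, ⟨e⟩⟩ := Cfsg.Agent.S0618.result hsol hO hnf
    haveI := hEn
    obtain ⟨h2, h3⟩ := dvd_card_SL2 p hp23
    rw [← Nat.card_congr e.toEquiv] at h2 h3
    have e2 := hX 2 Nat.prime_two
      ((h2.trans (Subgroup.card_quotient_dvd_card _)).trans (Subgroup.card_subgroup_dvd_card E))
    have e3 := hX 3 Nat.prime_three
      ((h3.trans (Subgroup.card_quotient_dvd_card _)).trans (Subgroup.card_subgroup_dvd_card E))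
    omega
  -- the characteristic subgroup
  set J := thompsonSubgroupOf p T with hJ
  have hJT : J ≤ T := Modules.thompsonSubgroupOf_le p T
  haveI : (thompsonSubgroup p T).Characteristic := Modules.thompsonSubgroup_characteristic p T
  set K' : Subgroup T :=
    thompsonSubgroup p T ⊔ Subgroup.centralizer (thompsonSubgroup p T : Set T) with hK'
  set K := K'.map T.subtype with hK
  have hKT : K ≤ T := Subgroup.map_subtype_le _
  have hKeq : K = J ⊔ (T ⊓ Subgroup.centralizer (J : Set X)) := by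
    have h1 : (Subgroup.centralizer (thompsonSubgroup p T : Set T)).map T.subtype =
        T ⊓ Subgroup.centralizer (J : Set X) := by
      refine le_antisymm (le_inf (Subgroup.map_subtype_le _) ?_) ?_
      · exact Subgroup.map_centralizer_le_centralizer_image _ T.subtype
      · rintro x ⟨hx, hxc⟩
        refine ⟨⟨x, hx⟩, Subgroup.mem_centralizer_iff.2 fun y hy => Subtype.ext ?_, rfl⟩
        exact Subgroup.mem_centralizer_iff.1 hxc _ ⟨y, hy, rfl⟩
    rw [hK, hK', Subgroup.map_sup, h1]
    rfl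
  by_cases hqN : q ∣ Nat.card ↥(Subgroup.normalizer (K : Set X))
  · obtain ⟨y, hy⟩ := exists_prime_orderOf_dvd_card' q hqN
    have hyq : ((y : X)) ^ q ^ 1 = 1 := by
      have h := congrArg Subtype.val (hy ▸ pow_orderOf_eq_one y : y ^ q = 1)
      simpa using h
    refine ⟨K', inferInstance, y, y.2, fun hc => ?_, 1, hyq⟩
    have hy1 : (y : X) ≠ 1 := fun h => by
      rw [OneMemClass.coe_eq_one.1 h, orderOf_one] at hy
      exact hqp.one_lt.ne hy
    set H := pCore p X
    haveI : H.Normal := pCore_normal p X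
    have hH : IsPGroup p H := PSolv.isPGroup_pCore p X
    have hHT : H ≤ T := hST ▸ PSolv.pCore_le_sylow S
    have hQ : (Nat.card (Subgroup.zpowers (y : X))).Coprime p := by
      rw [Nat.card_zpowers, Subgroup.orderOf_coe, hy]
      exact (Nat.coprime_primes hqp hp).2 hpq.symm
    have h := Coprime.pxq_lemma (p := p) (P := K) (Q := Subgroup.zpowers (y : X)) (V := H)
      (hTp.to_le hKT) hQ hH (Subgroup.normalizer_eq_top (H := H) ▸ le_top)
      (Subgroup.normalizer_eq_top (H := H) ▸ le_top)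
      (Subgroup.le_centralizer_iff.1 ((Subgroup.zpowers_le.2 hc))) ?_
    · exact hy1 (hqel hH (PSolv.centralizer_pCore_le hsol hO
        (h (Subgroup.mem_zpowers _))) ⟨1, hyq⟩)
    · refine (Subgroup.zpowers_le.2 hc).trans (Subgroup.centralizer_le ?_)
      rintro x ⟨hx1, hx2⟩
      change x ∈ K
      rw [hKeq]
      refine Subgroup.mem_sup_right ⟨hHT hx1, ?_⟩
      exact Subgroup.centralizer_le (hKeq ▸ le_sup_left : J ≤ K) hx2
  -- otherwise the centre is central
  set Z' := omegaOne p (Subgroup.center T) with hZ'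
  set Z := omegaOne p (T ⊓ Subgroup.centralizer (T : Set X)) with hZ
  haveI hZ'c : Z'.Characteristic := Subgroup.characteristic_iff_map_eq.2 fun φ => by
    rw [hZ', Modules.map_omegaOne φ.injective,
      Subgroup.characteristic_iff_map_eq.1 inferInstance φ]
  have hZmap : Z'.map T.subtype = Z := by
    rw [hZ', hZ, Modules.map_omegaOne T.subtype_injective]
    congr 1
    refine le_antisymm (le_inf (Subgroup.map_subtype_le _) ?_) ?_
    · rintro _ ⟨z, hz, rfl⟩
      exact Subgroup.mem_centralizer_iff.2 fun y hy =>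
        congrArg Subtype.val (Subgroup.mem_center_iff.1 hz ⟨y, hy⟩)
    · rintro x ⟨hx, hxc⟩
      exact ⟨⟨x, hx⟩, Subgroup.mem_center_iff.2 fun y =>
        Subtype.ext (Subgroup.mem_centralizer_iff.1 hxc _ y.2), rfl⟩
  have hZT : Z ≤ T := (Modules.omegaOne_le p _).trans inf_le_left
  have hZJ : Z ≤ J := ((Modules.omegaOne_center_le_centerThompson T).trans
    (Modules.omegaOne_le p _)).trans (Modules.centerThompsonOf_le_thompson p T)
  have hTN : ∀ L : Subgroup T, L.Characteristic →
      T ≤ Subgroup.normalizer ((L.map T.subtype : Subgroup X) : Set X) :=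
    fun L _ => Primitive.le_normalizer_map_char T L
  have hNK : Subgroup.normalizer (K : Set X) ≤ T := by
    have hTle : T ≤ Subgroup.normalizer (K : Set X) := hTN K' inferInstance
    have hpg : IsPGroup p ↥(Subgroup.normalizer (K : Set X)) := isPGroup_of_onlyPrimes
      (hX.of_dvd (Subgroup.card_subgroup_dvd_card _)) hqN
    have := S.is_maximal' hpg (hST.symm ▸ hTle)
    exact (this.trans hST).le
  have hTc : T ≤ Subgroup.centralizer (Z : Set X) :=
    Subgroup.le_centralizer_iff.1 ((Modules.omegaOne_le p _).trans inf_le_right)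
  have hNJ : Subgroup.normalizer (J : Set X) ≤ Subgroup.centralizer (Z : Set X) := by
    intro g hg
    set N := Subgroup.normalizer (J : Set X) with hN
    have hTNJ : T ≤ N := hTN _ inferInstance
    haveI hCn : ((Subgroup.centralizer (J : Set X)).subgroupOf N).Normal := inferInstance
    let SN : Sylow p N := (hTp.comap_subtype (K := N)).toSylow (fun h => S.not_dvd_index
      (hST.symm ▸ h.trans (Subgroup.relIndex_dvd_index_of_le hTNJ)))
    obtain ⟨c, hc, m, hm, hgm⟩ := exists_mul_mem_normalizer_inf SN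
      ((Subgroup.centralizer (J : Set X)).subgroupOf N) ⟨g, hg⟩
    have hU : ((SN : Subgroup N) ⊓ (Subgroup.centralizer (J : Set X)).subgroupOf N).map N.subtype
        = T ⊓ Subgroup.centralizer (J : Set X) := by
      rw [Subgroup.map_inf _ _ _ N.subtype_injective, Subgroup.map_subgroupOf_eq_of_le
        (Subgroup.centralizer_le_normalizer _), ← Subgroup.map_subgroupOf_eq_of_le hTNJ]
      rfl
    have hm2 : (m : X) ∈ Subgroup.normalizer
        ((T ⊓ Subgroup.centralizer (J : Set X) : Subgroup X) : Set X) :=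
      hU ▸ PSolv.map_normalizer_le_normalizer_image N.subtype _ ⟨m, hm, rfl⟩
    have hm3 : (m : X) ∈ Subgroup.normalizer (K : Set X) := by
      rw [hKeq, Subgroup.mem_normalizer_iff_map_conj_eq, Subgroup.map_sup,
        Subgroup.mem_normalizer_iff_map_conj_eq.1 m.2,
        Subgroup.mem_normalizer_iff_map_conj_eq.1 hm2]
    have : g = (c : X) * (m : X) := congrArg Subtype.val hgm
    rw [this]
    exact mul_mem (Subgroup.centralizer_le hZJ hc) (hTc (hNK hm3))
  have hcen : ∀ g : X, g ∈ Subgroup.centralizer (Z : Set X) := by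
    intro g
    obtain ⟨x, hx, c, hc, m, hm, rfl⟩ := hfac S g
    rw [hO, Subgroup.mem_bot] at hx
    rw [hST] at hc hm
    rw [hx, one_mul]
    exact mul_mem hc (hNJ hm)
  have hZc : Z ≤ Subgroup.center X := fun z hz => Subgroup.mem_center_iff.2 fun g =>
    (Subgroup.mem_centralizer_iff.1 (hcen g) z hz).symm
  haveI hZn : Z.Normal := ⟨fun z hz g => by
    rwa [Subgroup.mem_center_iff.1 (hZc hz) g, mul_inv_cancel_right]⟩
  have hTne : T ≠ ⊥ := by
    intro hT
    have hcard : ¬ p ∣ Nat.card X := fun h => S.ne_bot_of_dvd_card h (hST.trans hT)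
    have h1 : (⊤ : Subgroup X) ≤ pPrimeCore p X := PSolv.le_pPrimeCore inferInstance
      (by rw [Subgroup.card_top]; exact (hp.coprime_iff_not_dvd.2 hcard).symm)
    rw [hO] at h1
    have h2 : Nat.card X = 1 := by
      rw [← Subgroup.card_top, le_bot_iff.1 h1, Subgroup.card_bot]
    exact hqp.not_dvd_one (h2 ▸ hq)
  have hZne : Z ≠ ⊥ := Modules.omegaOne_center_ne_bot hTp hTne
  -- pass to the quotient by the centre
  set π := QuotientGroup.mk' Z
  have hπ : Function.Surjective π := QuotientGroup.mk'_surjective Z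
  have hker : π.ker = Z := QuotientGroup.ker_mk' Z
  have hOq : pPrimeCore p (X ⧸ Z) = ⊥ := by
    set M := (pPrimeCore p (X ⧸ Z)).comap π with hM
    have := PSolv.pPrimeCore_characteristic p (X ⧸ Z)
    haveI : M.Normal := Subgroup.Normal.comap inferInstance π
    have hZM : Z ≤ M := QuotientGroup.le_comap_mk' Z _
    have hZe : Z.subgroupOf M = ⊤ := by
      refine PSolv.eq_top_of_central_coprime_index (p := p) _ (fun z hz =>
        Subgroup.mem_center_iff.2 fun g => Subtype.ext
          (Subgroup.mem_center_iff.1 (hZc hz) (g : X))) ((hTp.to_le hZT).comap_subtype) ?_ ?_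
      · have h1 : Z.relIndex M = Nat.card (pPrimeCore p (X ⧸ Z)) := by
          rw [← PSolv.card_map_mk_eq_relIndex, hM,
            Subgroup.map_comap_eq_self_of_surjective hπ]
        change (Z.relIndex M).Coprime p
        rw [h1]; exact PSolv.coprime_card_pPrimeCore p _
      · have h1 := PSolv.map_pPrimeCore_subtype_le (p := p) (N := M)
        rw [hO] at h1
        exact (Subgroup.map_eq_bot_iff_of_injective _ M.subtype_injective).1 (le_bot_iff.1 h1)
    rw [Subgroup.subgroupOf_eq_top] at hZe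
    rw [← Subgroup.map_comap_eq_self_of_surjective hπ (pPrimeCore p (X ⧸ Z)), ← hM,
      Subgroup.map_eq_bot_iff, hker]
    exact hZe
  have hqZ : q ∣ Nat.card (X ⧸ Z) := by
    obtain ⟨j, hj⟩ := IsPGroup.iff_card.1 (hTp.to_le hZT)
    have h1 := Subgroup.card_eq_card_quotient_mul_card_subgroup Z
    rw [h1] at hq
    refine (hqp.dvd_mul.1 hq).resolve_right fun h => hpq ?_
    exact (only_of_pow hp hj hqp h).symm
  have hlt : Nat.card (X ⧸ Z) < n := by
    rw [← hn, Subgroup.card_eq_card_quotient_mul_card_subgroup Z]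
    exact lt_mul_of_one_lt_right Nat.card_pos ((Subgroup.one_lt_card_iff_ne_bot Z).2 hZne)
  obtain ⟨L, hLc, hm⟩ := ih _ hlt (X ⧸ Z) rfl (hX.of_dvd (Subgroup.card_quotient_dvd_card Z))
    (PSolv.isPSolvable_quotient hsol Z) hOq hqZ (S.mapSurjective hπ) (T.map π)
    (by rw [Sylow.coe_mapSurjective, hST])
  set g := π.subgroupMap T with hg
  have hgker : g.ker = Z' := by
    ext t
    rw [MonoidHom.mem_ker, hg]
    constructor
    · intro h
      have h' : π (t : X) = 1 := congrArg Subtype.val h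
      have h'' : (t : X) ∈ Z := (QuotientGroup.eq_one_iff _).1 h'
      obtain ⟨z, hz, hzt⟩ := hZmap.symm.le h''
      exact (Subtype.ext hzt : z = t) ▸ hz
    · intro h
      apply Subtype.ext
      change π (t : X) = 1
      exact (QuotientGroup.eq_one_iff _).2 (hZmap.le ⟨t, h, rfl⟩)
  haveI := hLc
  refine ⟨L.comap g, comap_characteristic g (π.subgroupMap_surjective T)
    (hgker ▸ hZ'c) L, ?_⟩
  set L₁ := L.map (T.map π).subtype with hL₁
  have hpre : (L.comap g).map T.subtype = L₁.comap π := by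
    ext x
    constructor
    · rintro ⟨t, ht, rfl⟩
      exact ⟨g t, ht, rfl⟩
    · intro hx
      obtain ⟨⟨_, t, ht, rfl⟩, hl, hlx⟩ := hx
      have hz : t⁻¹ * x ∈ Z := by
        rw [← QuotientGroup.eq]; exact hlx
      have hxT : x ∈ T := by
        rw [show x = t * (t⁻¹ * x) by group]; exact mul_mem ht (hZT hz)
      refine ⟨⟨x, hxT⟩, ?_, rfl⟩
      change g ⟨x, hxT⟩ ∈ L
      have e : g ⟨x, hxT⟩ = ⟨π t, ⟨t, ht, rfl⟩⟩ := Subtype.ext hlx.symm
      rw [e]; exact hl
  obtain ⟨nb, hnb, hnbc, k, hk⟩ := hm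
  obtain ⟨m, rfl⟩ := hπ nb
  have hmN : m ∈ Subgroup.normalizer ((L₁.comap π : Subgroup X) : Set X) := by
    rw [Subgroup.mem_normalizer_iff]
    intro y
    simp only [Subgroup.mem_comap, map_mul, map_inv]
    exact Subgroup.mem_normalizer_iff.1 hnb (π y)
  have hmC : m ∉ Subgroup.centralizer ((L₁.comap π : Subgroup X) : Set X) := fun hc => hnbc (by
    have h1 := Subgroup.map_centralizer_le_centralizer_image _ π ⟨m, hc, rfl⟩
    rwa [← Subgroup.coe_map, Subgroup.map_comap_eq_self_of_surjective hπ] at h1)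
  have hmk : m ^ q ^ k ∈ Subgroup.centralizer ((L₁.comap π : Subgroup X) : Set X) := by
    rw [← map_pow] at hk
    exact Subgroup.center_le_centralizer _ (hZc ((QuotientGroup.eq_one_iff _).1 hk))
  obtain ⟨y, hy, hyC, hyq⟩ := exists_qPower_not_mem (q := q) _ _ hmN hmC hmk
  exact hpre.symm ▸ ⟨y, hy, hyC, hyq⟩

/-- A prime moving a normal `p`-subgroup of a biprimary group moves a characteristic subgroup
of a Sylow `p`-subgroup. -/
theorem charMover_of_mover {p q : ℕ} [Fact p.Prime] [Fact q.Prime] (hpq : p ≠ q)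
    (h23 : ¬ ((p = 2 ∧ q = 3) ∨ (p = 3 ∧ q = 2))) {X : Type u} [Group X] [Finite X]
    (hX : OnlyPrimes p q X) (hsol : IsPSolvable p X) (S : Sylow p X) (H : Subgroup X) [H.Normal]
    (hH : IsPGroup p H) {y : X} (hy : ∃ k : ℕ, y ^ q ^ k = 1)
    (hyH : y ∉ Subgroup.centralizer (H : Set X)) : CharMover q (S : Subgroup X) := by
  have hp : p.Prime := Fact.out
  have hqp : q.Prime := Fact.out
  set N := pPrimeCore p X with hN
  haveI := PSolv.pPrimeCore_characteristic p X
  have hNc : (Nat.card N).Coprime p := PSolv.coprime_card_pPrimeCore p X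
  have hNq : ∀ z ∈ N, ∃ k : ℕ, z ^ q ^ k = 1 := by
    have hpg : IsPGroup q N := by
      refine isPGroup_of_onlyPrimes (p := q) (q := p)
        (fun r hr hd => (hX r hr (hd.trans (Subgroup.card_subgroup_dvd_card N))).symm) ?_
      exact hp.coprime_iff_not_dvd.1 hNc.symm
    intro z hz
    obtain ⟨k, hk⟩ := hpg ⟨z, hz⟩
    exact ⟨k, by simpa using congrArg Subtype.val hk⟩
  set π := QuotientGroup.mk' N
  have hπ : Function.Surjective π := QuotientGroup.mk'_surjective N
  have hqX : q ∣ Nat.card (X ⧸ N) := by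
    by_contra hnd
    have hpg : IsPGroup p (X ⧸ N) :=
      isPGroup_of_onlyPrimes (hX.of_dvd (Subgroup.card_quotient_dvd_card N)) hnd
    obtain ⟨k, hk⟩ := hy
    obtain ⟨j, hj⟩ := hpg (π y)
    have hk' : π y ^ q ^ k = 1 := by rw [← map_pow, hk, map_one]
    have h1 : π y ^ Nat.gcd (q ^ k) (p ^ j) = 1 := pow_gcd_eq_one.2 ⟨hk', hj⟩
    rw [Nat.Coprime.gcd_eq_one (Nat.Coprime.pow k j ((Nat.coprime_primes hqp hp).2 hpq.symm)),
      pow_one] at h1
    refine hyH (Subgroup.mem_centralizer_iff.2 fun h hh => ?_)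
    exact (Subgroup.commute_of_normal_of_disjoint H N inferInstance inferInstance
      (disjoint_iff.2 (PSolv.sylow_inf_eq_bot hNc hH)) h y hh
      ((QuotientGroup.eq_one_iff _).1 h1)).eq
  set T := (S : Subgroup X) with hT
  obtain ⟨L, hLc, hm⟩ := charMover_biprimary hpq h23 _ (X ⧸ N) rfl
    (hX.of_dvd (Subgroup.card_quotient_dvd_card N)) (PSolv.isPSolvable_quotient hsol N)
    (PSolv.pPrimeCore_quotient_eq_bot p X) hqX (S.mapSurjective hπ) (T.map π)
    (Sylow.coe_mapSurjective _ _)
  set g := π.subgroupMap T with hg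
  have hgi : Function.Injective g := by
    intro a b hab
    have hab' : π (a : X) = π (b : X) := congrArg Subtype.val hab
    exact PSolv.comp_subtype_injective π T (by
      rw [QuotientGroup.ker_mk']; exact PSolv.sylow_inf_eq_bot hNc S.isPGroup') hab'
  haveI := hLc
  refine ⟨L.comap g, comap_characteristic g (π.subgroupMap_surjective T)
    ((MonoidHom.ker_eq_bot_iff g).2 hgi ▸ inferInstance) L, ?_⟩
  set K := (L.comap g).map T.subtype with hK
  have himg : K.map π = L.map (T.map π).subtype := by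
    conv_rhs => rw [← Subgroup.map_comap_eq_self_of_surjective
      (π.subgroupMap_surjective T) L]
    rw [hK, Subgroup.map_map, Subgroup.map_map]
    rfl
  rw [← himg] at hm
  obtain ⟨nb, hnb, hnbc, k, hk⟩ := hm
  obtain ⟨m, rfl⟩ := hπ nb
  obtain ⟨x, hx, z, hz, rfl⟩ := PSolv.exists_mul_mem_normalizer N hNc (P := K)
    (S.isPGroup'.to_le (Subgroup.map_subtype_le _)) hnb
  rw [map_mul, show π x = 1 from (QuotientGroup.eq_one_iff x).2 hx, one_mul] at hnbc hk
  refine ⟨z, hz, fun hc => hnbc (Subgroup.map_centralizer_le_centralizer_image _ π ⟨z, hc, rfl⟩),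
    ?_⟩
  rw [← map_pow] at hk
  obtain ⟨k', hk'⟩ := hNq _ ((QuotientGroup.eq_one_iff _).1 hk)
  exact ⟨k + k', by rw [pow_add, pow_mul, hk']⟩

/-- A prime dividing the order of some `p`-soluble automizer of a `p`-subgroup divides that of
a subgroup normal in a Sylow `p`-subgroup. -/
theorem exists_mover_normal_sylow {G : Type u} [Group G] [Finite G] {p q : ℕ} [Fact p.Prime]
    [Fact q.Prime] (hpq : p ≠ q) (h23 : ¬ ((p = 2 ∧ q = 3) ∨ (p = 3 ∧ q = 2)))
    (hsol : ∀ H : Subgroup G, IsPGroup p ↥H →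
      IsPSolvable p (↥(Subgroup.normalizer (H : Set G)) ⧸
        (Subgroup.centralizer (H : Set G)).subgroupOf (Subgroup.normalizer (H : Set G))))
    (H₀ : Subgroup G) (hH₀ : IsPGroup p H₀) (hm₀ : Mover q H₀) (Gp : Sylow p G) :
    ∃ K : Subgroup G, K ≤ (Gp : Subgroup G) ∧
      (Gp : Subgroup G) ≤ Subgroup.normalizer (K : Set G) ∧ Mover q K := by
  classical
  have hp : p.Prime := Fact.out
  let v : Subgroup G → ℕ :=
    fun K => (Nat.card ↥(Subgroup.normalizer (K : Set G))).factorization p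
  let f : Subgroup G → ℕ := fun K => v K * (Nat.card G + 1) + Nat.card K
  obtain ⟨H, ⟨hH, hm⟩, hmax⟩ := Set.exists_max_image
    {K : Subgroup G | IsPGroup p K ∧ Mover q K} f (Set.toFinite _) ⟨H₀, hH₀, hm₀⟩
  have hbound : ∀ K : Subgroup G, IsPGroup p K → Mover q K → v K ≤ v H ∧
      (v H ≤ v K → Nat.card K ≤ Nat.card H) := by
    intro K hK hKm
    have h1 : v K * (Nat.card G + 1) + Nat.card K ≤ v H * (Nat.card G + 1) + Nat.card H :=
      hmax K ⟨hK, hKm⟩
    have h2 := Subgroup.card_le_card_group H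
    refine ⟨?_, fun h => ?_⟩
    · by_contra hc
      have : (v H + 1) * (Nat.card G + 1) ≤ v K * (Nat.card G + 1) :=
        Nat.mul_le_mul_right _ (Nat.lt_of_not_le hc)
      rw [Nat.succ_mul] at this
      omega
    · have : v H * (Nat.card G + 1) ≤ v K * (Nat.card G + 1) := Nat.mul_le_mul_right _ h
      omega
  have hval : ∀ (A B : Subgroup G), IsPGroup p A → A ≤ Subgroup.normalizer (B : Set G) →
      ∀ a, Nat.card A = p ^ a → a ≤ v B := fun A B _ hAB a ha =>
    (Nat.Prime.pow_dvd_iff_le_factorization hp Nat.card_pos.ne').1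
      (ha ▸ Subgroup.card_dvd_of_le hAB)
  set L := Subgroup.normalizer (H : Set G) with hL
  set C' := (Subgroup.centralizer (H : Set G)).subgroupOf L with hC'
  haveI : C'.Normal := inferInstance
  set H' := H.subgroupOf L with hH'
  haveI : H'.Normal := Subgroup.normal_in_normalizer
  have hHL : H ≤ L := Subgroup.le_normalizer
  have hHp : IsPGroup p H' := hH.comap_subtype
  obtain ⟨T0⟩ : Nonempty (Sylow p L) := inferInstance
  have hHT : H' ≤ T0 := (PSolv.le_pCore inferInstance hHp).trans (PSolv.pCore_le_sylow T0)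
  set T := (T0 : Subgroup L).map L.subtype with hT
  have hTp : IsPGroup p T := T0.isPGroup'.map _
  have hTL : T ≤ L := Subgroup.map_subtype_le _
  have hHTG : H ≤ T := by
    rw [hT, ← Subgroup.map_subgroupOf_eq_of_le hHL]
    exact Subgroup.map_mono hHT
  have hTcard : Nat.card T = p ^ v H := by
    rw [hT, Subgroup.card_map_of_injective L.subtype_injective]
    exact T0.card_eq_multiplicity
  obtain ⟨P, hP⟩ := hTp.exists_le_sylow
  by_cases hTP : T = P
  · obtain ⟨g, hg⟩ := MulAction.exists_smul_eq G P Gp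
    refine ⟨H.map (MulAut.conj g).toMonoidHom, ?_, ?_,
      hm.map _ (MulAut.conj g).injective⟩
    · rw [← hg, PSolv.coe_sylow_smul, ← hTP]
      exact Subgroup.map_mono hHTG
    · rw [← hg, PSolv.coe_sylow_smul, ← hTP]
      exact (Subgroup.map_mono hTL).trans
        (PSolv.map_normalizer_le_normalizer_image (MulAut.conj g).toMonoidHom H)
  exfalso
  -- a larger `p`-group normalizing `T`
  obtain ⟨S, hSp, hSN, hTS⟩ : ∃ S : Subgroup G, IsPGroup p S ∧
      S ≤ Subgroup.normalizer (T : Set G) ∧ T < S := by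
    haveI : Group.IsNilpotent ↥(P : Subgroup G) := P.isPGroup'.isNilpotent
    have hlt := Group.normalizerCondition_of_isNilpotent (T.subgroupOf (P : Subgroup G)) (by
      rw [lt_top_iff_ne_top, Ne, Subgroup.subgroupOf_eq_top]
      exact fun h => hTP (le_antisymm hP h))
    refine ⟨(Subgroup.normalizer ((T.subgroupOf (P : Subgroup G) : Subgroup _) : Set _)).map
      (P : Subgroup G).subtype, P.isPGroup'.to_le (Subgroup.map_subtype_le _), ?_, ?_⟩
    · refine (PSolv.map_normalizer_le_normalizer_image _ _).trans ?_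
      rw [Subgroup.map_subgroupOf_eq_of_le hP]
    · have h2 := Subgroup.map_lt_map_iff_of_injective
        (f := (P : Subgroup G).subtype) (P : Subgroup G).subtype_injective |>.2 hlt
      rwa [Subgroup.map_subgroupOf_eq_of_le hP] at h2
  -- the trace of `T` on the centralizer lies in `H`
  set U' := (T0 : Subgroup L) ⊓ C' with hU'
  have hUH : U' ≤ H' := by
    by_contra hUH
    set U := U'.map L.subtype with hU
    have hUT : U ≤ T := Subgroup.map_mono inf_le_left
    set H1 := H ⊔ U with hH1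
    have hH1T : H1 ≤ T := sup_le hHTG hUT
    have hlt : H < H1 := by
      refine lt_of_le_of_ne le_sup_left fun h => hUH fun x hx => ?_
      change (x : G) ∈ H
      rw [h]
      exact Subgroup.mem_sup_right ⟨x, hx, rfl⟩
    have hTN1 : T ≤ Subgroup.normalizer (H1 : Set G) := by
      rintro _ ⟨t, ht, rfl⟩
      have ht2 : t ∈ Subgroup.normalizer (U' : Set L) := by
        rw [hU', Subgroup.mem_normalizer_iff_map_conj_eq, Subgroup.map_inf _ _ _
          (MulAut.conj t).injective,
          Subgroup.mem_normalizer_iff_map_conj_eq.1 (Subgroup.le_normalizer ht),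
          Subgroup.mem_normalizer_iff_map_conj_eq.1
            (Subgroup.normalizer_eq_top (H := C') ▸ Subgroup.mem_top t)]
      rw [Subgroup.mem_normalizer_iff_map_conj_eq, hH1, Subgroup.map_sup,
        Subgroup.mem_normalizer_iff_map_conj_eq.1
          (show L.subtype t ∈ Subgroup.normalizer (U : Set G) from
            PSolv.map_normalizer_le_normalizer_image L.subtype U' ⟨t, ht2, rfl⟩),
        Subgroup.mem_normalizer_iff_map_conj_eq.1
          (show L.subtype t ∈ Subgroup.normalizer (H : Set G) from t.2)]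
    obtain ⟨y, hy, hyC, k, hk⟩ := hm
    obtain ⟨c, hc, m, hm', hym⟩ := exists_mul_mem_normalizer_inf T0 C' ⟨y, hy⟩
    have hmN : (m : G) ∈ Subgroup.normalizer (H1 : Set G) := by
      rw [Subgroup.mem_normalizer_iff_map_conj_eq, hH1, Subgroup.map_sup,
        Subgroup.mem_normalizer_iff_map_conj_eq.1
          (show (m : G) ∈ Subgroup.normalizer (U : Set G) from
            PSolv.map_normalizer_le_normalizer_image L.subtype U' ⟨m, hm', rfl⟩),
        Subgroup.mem_normalizer_iff_map_conj_eq.1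
          (show (m : G) ∈ Subgroup.normalizer (H : Set G) from m.2)]
    have hmC : (m : G) ∉ Subgroup.centralizer (H : Set G) := fun h => hyC (by
      have e : y = (c : G) * (m : G) := congrArg Subtype.val hym
      rw [e]; exact mul_mem hc h)
    have hmk : m ^ q ^ k ∈ C' := by
      have e : (QuotientGroup.mk' C') m = (QuotientGroup.mk' C') ⟨y, hy⟩ := by
        rw [hym, map_mul, show (QuotientGroup.mk' C') c = 1 from
          (QuotientGroup.eq_one_iff c).2 hc, one_mul]
      rw [← QuotientGroup.eq_one_iff (N := C'), ← QuotientGroup.mk'_apply, map_pow, e, ← map_pow,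
        show (⟨y, hy⟩ : L) ^ q ^ k = 1 from Subtype.ext hk, map_one]
    obtain ⟨z, hz, hzC, hzq⟩ := exists_qPower_not_mem (q := q)
      (Subgroup.normalizer (H1 : Set G) ⊓ L) (Subgroup.centralizer (H : Set G))
      (n := (m : G)) ⟨hmN, m.2⟩ hmC (a := k) (Subgroup.mem_subgroupOf.1 hmk)
    have hmov : Mover q H1 := ⟨z, hz.1,
      fun h => hzC (Subgroup.centralizer_le hlt.le h), hzq⟩
    have hb := hbound H1 (hTp.to_le hH1T) hmov
    have hcard := hb.2 (hval T H1 hTp hTN1 _ hTcard)
    exact absurd (Subgroup.eq_of_le_of_card_ge hlt.le hcard) hlt.ne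
  -- the normalizer is `p`-soluble
  have hCsol : IsPSolvable p C' := by
    set U2 := U'.subgroupOf C'
    haveI : U2.Normal := ⟨fun u hu g => by
      have h1 : g * u = u * g := by
        apply Subtype.ext; apply Subtype.ext
        exact (Subgroup.mem_centralizer_iff.1 (Subgroup.mem_subgroupOf.1 g.2) _ (hUH hu)).symm
      rwa [h1, mul_inv_cancel_right]⟩
    refine PSolv.isPSolvable_of_extension U2
      (PSolv.isPSolvable_of_isPGroup ((T0.isPGroup'.to_le inf_le_left).comap_subtype))
      (PSolv.isPSolvable_of_coprime ?_)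
    rw [← Subgroup.index_eq_card]
    exact (hp.coprime_iff_not_dvd.2 (LAE62.not_dvd_relIndex_sylow_inf_normal T0 C')).symm
  have hLsol : IsPSolvable p L := PSolv.isPSolvable_of_extension C' hCsol (hsol H hH)
  obtain ⟨X, hTX, hX, hXq⟩ := exists_biprimary_ge (q := q) hLsol T0
  -- an element of `q`-power order of `X` outside the centralizer
  obtain ⟨x, hxX, hxC, hxq⟩ : ∃ x ∈ X, x ∉ C' ∧ ∃ k : ℕ, x ^ q ^ k = 1 := by
    obtain ⟨y, hy, hyC, k, hk⟩ := hm
    have hz : IsPGroup q (Subgroup.zpowers (⟨y, hy⟩ : L)) := by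
      obtain ⟨j, -, hj⟩ := (Nat.dvd_prime_pow Fact.out).1
        (orderOf_dvd_of_pow_eq_one (show (⟨y, hy⟩ : L) ^ q ^ k = 1 from Subtype.ext hk))
      exact IsPGroup.of_card (n := j) (by rw [Nat.card_zpowers, hj])
    obtain ⟨Q, hQ⟩ := hz.exists_le_sylow
    obtain ⟨Q1⟩ : Nonempty (Sylow q X) := inferInstance
    let Q2 : Sylow q L := (Q1.isPGroup'.map X.subtype).toSylow (by
      rw [Subgroup.index_map_subtype]
      exact fun h => ((Fact.out : q.Prime).dvd_mul.1 h).elim Q1.not_dvd_index hXq)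
    obtain ⟨g, hg⟩ := MulAction.exists_smul_eq L Q Q2
    refine ⟨g * ⟨y, hy⟩ * g⁻¹, ?_, fun h => hyC ?_, k, ?_⟩
    · have : g * ⟨y, hy⟩ * g⁻¹ ∈ (Q2 : Subgroup L) := by
        rw [← hg, PSolv.coe_sylow_smul]
        exact ⟨_, hQ (Subgroup.mem_zpowers _), rfl⟩
      exact Subgroup.map_subtype_le _ this
    · have := ‹C'.Normal›.conj_mem _ h g⁻¹
      exact Subgroup.mem_subgroupOf.1 (by simpa [mul_assoc] using this : (⟨y, hy⟩ : L) ∈ C')
    · rw [conj_pow, show (⟨y, hy⟩ : L) ^ q ^ k = 1 from Subtype.ext hk]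
      simp
  let SX : Sylow p X := ((T0.isPGroup').comap_subtype (K := X)).toSylow
    (fun h => T0.not_dvd_index (h.trans (Subgroup.relIndex_dvd_index_of_le hTX)))
  have hH'X : H' ≤ X := hHT.trans hTX
  have hcm : CharMover q (SX : Subgroup X) := by
    refine charMover_of_mover hpq h23 hX (PSolv.isPSolvable_subgroup hLsol X) SX
      (H'.subgroupOf X) hHp.comap_subtype (y := ⟨x, hxX⟩) ?_ ?_
    · obtain ⟨k, hk⟩ := hxq; exact ⟨k, Subtype.ext hk⟩
    · intro h
      refine hxC (Subgroup.mem_subgroupOf.2 (Subgroup.mem_centralizer_iff.2 fun z hz => ?_))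
      have := Subgroup.mem_centralizer_iff.1 h ⟨⟨z, hHL hz⟩, hH'X hz⟩ hz
      exact congrArg (fun w : X => ((w : L) : G)) this
  have hcm2 := hcm.map (L.subtype.comp X.subtype)
    (L.subtype_injective.comp X.subtype_injective)
  have hTeq : (SX : Subgroup X).map (L.subtype.comp X.subtype) = T := by
    rw [← Subgroup.map_map]
    exact congrArg (Subgroup.map L.subtype) (Subgroup.map_subgroupOf_eq_of_le hTX)
  rw [hTeq] at hcm2
  obtain ⟨K0, hK0, hKm⟩ := hcm2
  have hb := (hbound _ (hTp.to_le (Subgroup.map_subtype_le K0)) hKm).1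
  have hN : S ≤ Subgroup.normalizer ((K0.map T.subtype : Subgroup G) : Set G) :=
    hSN.trans (Primitive.normalizer_le_normalizer_map_char T K0)
  obtain ⟨a, ha⟩ := IsPGroup.iff_card.1 hSp
  have h1 := hval S _ hSp hN a ha
  have h2 : Nat.card T < Nat.card S :=
    lt_of_le_of_ne (Subgroup.card_le_of_le hTS.le)
      fun h => hTS.ne (Subgroup.eq_of_le_of_card_ge hTS.le h.ge)
  rw [hTcard, ha] at h2
  have := (Nat.pow_lt_pow_iff_right hp.one_lt).1 h2
  omega

end Cfsg.Agent.Automizer
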